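import Cfsg.Agent.H607.R2.WL
import Cfsg.Agent.H607.R2.Abs
import Cfsg.Agent.H808.R2.AdjW
import Cfsg.Agent.H115.R2.Lev

/-!
# S3509, R2: families of `p'`-elements for `E₆`, `²E₆` (helper607)

* `MPsiInput m V` : for the weak toral forms over `LS v s` there is a dead quasisimple group `M` normalised by the centraliser;
* `NineInput m` : the members lie in a torus with `1 ± θ³ + θ⁶ = 0`;
* `pfam_dead` : no family of commuting `p'`-elements of different prime orders covers.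
-/

set_option autoImplicit false
set_option linter.unusedSectionVars false
open Cfsg

namespace Cfsg.Agent.H607.R2

open CoxeterSystem Cfsg Cfsg.Lie Cfsg.Lie.ChevalleyDatum
open Cfsg.Agent.ChevalleyStructure Cfsg.Agent.ChevalleyStructure.Elts Cfsg.Agent.ChevalleyStructure.CoxeterGeom
  Cfsg.Agent.ChevalleyStructure.CoxeterGeomTypes Cfsg.Agent.ChevalleyStructure.NPerm
open Cfsg.Agent.Tits.Roots Cfsg.Agent.Tits.Core Cfsg.Agent.Nodes Cfsg.Agent.Nodes.Reps Cfsg.Agent.Nodes.BNOf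
  Cfsg.Agent.Nodes.RGDChev
open Cfsg.Agent.KFacts.RgdField Cfsg.Agent.KFacts.RgdChevCoord
open Cfsg.Agent.BpExc Cfsg.Agent.BpExc.TorCent Cfsg.Agent.BpExc.TorChev Cfsg.Agent.BpExc.Pair Cfsg.Agent.BpExc.LangFr
open Cfsg.Agent.H469.Exc Cfsg.Agent.H316.U6 Cfsg.Agent.H169.RG Cfsg.Agent.H441.RG
open MulAction Cfsg.Agent.H106.RC Cfsg.Agent.H368.RG Cfsg.Agent.H873.RG Cfsg.Agent.H380.RC Cfsg.Agent.H694.RG
open Cfsg.Agent.H327.RG (act)
open Cfsg.Agent.H28.GenF (InD)

variable {M : CoxeterMatrix (Fin 6)} {hp : IsType chevE6 6 M} {r q : ℕ} [hr : Fact r.Prime] {K₀ : Type} [Group K₀]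

/-- a quasisimple group with a long root element normalised by the centraliser of `t` -/
def MPsiInput (m : MData hp r q K₀) (V : ↥(chevE6.group (KK r)) → Prop) : Prop :=
  ∀ (v : M.Group) (s : ℕ), s < 3 → ∀ (z n t : ↥(chevE6.group (KK r))) (θ : (Fin 6 → ℤ) ≃+ (Fin 6 → ℤ)),
    z⁻¹ * m.σ z = n → Wk.DFr hp M.toCoxeterSystem r m.e (MulAut.conj n * m.σ) θ t →
    Sx M.toCoxeterSystem hp.isCartan (ch hp) t = LS hp M.toCoxeterSystem v s →
    (∀ w : M.Group, (∀ a, IsRoot M.toCoxeterSystem hp.isCartan a →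
        ch hp (rep M.toCoxeterSystem hp.isCartan w a) t = ch hp a t) →
      (∀ a ∈ Sx M.toCoxeterSystem hp.isCartan (ch hp) t, 0 ≤ a → 0 ≤ rep M.toCoxeterSystem hp.isCartan w a) → w = 1) →
    ∃ N : Subgroup ↥(chevE6.group (KK r)), GoodY m.ι N ∧
      (∀ c ∈ fixC (MulAut.conj n * m.σ) t, z * c * z⁻¹ ∈ Subgroup.normalizer (N : Set ↥(chevE6.group (KK r)))) ∧
      ∃ v ∈ N, V v

/-- the members lie in a torus of type `E₆(a₁)` -/
def NineInput (m : MData hp r q K₀) : Prop :=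
  ∀ (G Ω : Type) [Group G] [Finite G] [Finite Ω] [Nonempty Ω] [MulAction G Ω] (N : Subgroup G) (hE : Env G Ω N)
    (e : N ≃* K₀) (κ : Type) [Finite κ] (x : κ → G) (y : κ → ↥(chevE6.group (KK r))) (rr : κ → ℕ),
    PF x rr → Cov Ω x → (∀ i, rr i ≠ r) → (∀ i, Rep hE e m.ι (x i) (y i)) →
    ∀ (g : ↥(chevE6.group (KK r))) (f : TorForm m g), (∀ i, ∃ k : ℕ, y i = g ^ k) →
    ((∀ a, a + f.θ (f.θ (f.θ a)) + f.θ (f.θ (f.θ (f.θ (f.θ (f.θ a))))) = 0) ∨
      (∀ a, a - f.θ (f.θ (f.θ a)) + f.θ (f.θ (f.θ (f.θ (f.θ (f.θ a))))) = 0)) → False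

/-- **Families of `p'`-elements.** -/
theorem pfam_dead [Finite K₀] (m : MData hp r q K₀) (hF : H327.RG.Fr m.ι m.σ) {V : ↥(chevE6.group (KK r)) → Prop}
    {U : ↥(chevE6.group (KK r)) → Subgroup ↥(chevE6.group (KK r))} (hYD : YData m.ι (fixedSubgroup m.σ) r V U)
    (hMPsi : MPsiInput m V) (hNine : NineInput m) (hIH : IHx (Nat.card K₀))
    (G : Type) [Group G] [Finite G] (Ω : Type) [Finite Ω] [Nonempty Ω] [MulAction G Ω] (N : Subgroup G)
    (hE : Env G Ω N) (e : N ≃* K₀) (κ : Type) [Finite κ] (x : κ → G) (rr : κ → ℕ) (hx : PF x rr) (hcov : Cov Ω x)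
    (hD : ∀ i, act hE e (x i) ∈ InD m.ι) (hrr : ∀ i, rr i ≠ r) : False := by
  have := finite_W hp M.toCoxeterSystem
  have hrep : ∀ i, ∃ y, Rep hE e m.ι (x i) y := fun i => hD i
  choose y hy using hrep
  have hyPF : PF y rr := pf_rep hF hE e hy hx
  have hyσ : ∀ i, m.σ (y i) = y i := fun i => Rep.fix hF (hy i)
  obtain ⟨g, hgσ, ⟨d, hd0, hd, hgd⟩, hpow⟩ := exists_gen_pp hr.out hyPF hrr hyσ
  obtain ⟨f⟩ := exists_torForm m hgσ hd0 hd hgd
  rcases theta_LS hp m f.w f.hθ with ⟨v, s, hs, hst⟩ | ⟨u, hu, hθu⟩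
  · obtain ⟨t, ht, -, hSx, -, -, hPP⟩ := H115.R2.exists_lev hp M.toCoxeterSystem r (k := KK r) H129.TorusChar.invC_E6
      (by norm_num) ((sd s).comp (rep M.toCoxeterSystem hp.isCartan v).toAddMonoidHom)
    have hSx' : Sx M.toCoxeterSystem hp.isCartan (ch hp) t = LS hp M.toCoxeterSystem v s := hSx
    obtain ⟨z, n, θ', hz, dfr, -, hmem⟩ := H808.R2.exists_adj_of f (S := LS hp M.toCoxeterSystem v s) hst ht hSx'
    obtain ⟨N', hN', hnorm, w, hw, hV⟩ := hMPsi v s hs z n t θ' hz dfr hSx' (fun w h1 h2 => by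
      have h3 : w ∈ PP M.toCoxeterSystem hp.isCartan (ch hp) t := mem_PP.2 ⟨h1, h2⟩
      rw [hPP] at h3
      exact Subgroup.mem_bot.1 h3)
    refine dead_of_M hF hE e hIH hN' (hYD.dead hF hw hV) hx hcov hrr hy fun i => ?_
    obtain ⟨k, hk⟩ := hpow i
    have h1 : f.z⁻¹ * y i * f.z ∈ TT chevE6 (KK r) := by
      have h2 : f.z⁻¹ * y i * f.z = f.t ^ k := by
        have h3 : g ^ k = f.z * f.t ^ k * f.z⁻¹ := (congrArg (fun a => a ^ k) f.eq).trans conj_pow
        rw [hk, h3]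
        group
      rw [h2]
      exact pow_mem f.mem k
    have h2 := hnorm _ (hmem (y i) (hyσ i) h1)
    have e1 : z * (z⁻¹ * y i * z) * z⁻¹ = y i := by group
    rwa [e1] at h2
  · refine hNine G Ω N hE e κ x y rr hx hcov hrr hy g f hpow ?_
    rcases hθu with h | h
    · left
      intro a
      have h1 := hu a
      simp only [pow_succ, pow_zero, one_mul, rep_mul_apply] at h1
      rw [h, h, h, h, h, h]
      exact h1
    · right
      intro a
      have h1 := hu a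
      simp only [pow_succ, pow_zero, one_mul, rep_mul_apply] at h1
      rw [h, h, h, h, h, h]
      simp only [map_neg, neg_neg, sub_neg_eq_add]
      exact h1

end Cfsg.Agent.H607.R2
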